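import Mathlib
set_option autoImplicit false

/-!
Element orders of the group `x ↦ a x + b`, `a` in a given group of units.
-/

namespace CfsgLib.AffineLine

variable {K : Type} [Field K] (U : Subgroup Kˣ)

/-- Multiplication by a group of units, as automorphisms of the additive group. -/
def act : U →* MulAut (Multiplicative K) where
  toFun u := AddEquiv.toMultiplicative (DistribMulAction.toAddEquiv K (u : Kˣ))
  map_one' := MulEquiv.ext fun x => by simp [AddEquiv.toMultiplicative, DistribMulAction.toAddEquiv]
  map_mul' u v := MulEquiv.ext fun x => by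
    simp [AddEquiv.toMultiplicative, DistribMulAction.toAddEquiv, mul_smul]

/-- The affine group of a line with linear parts in `U`. -/
abbrev Grp : Type := SemidirectProduct (Multiplicative K) U (act U)

theorem isSolvable : Group.IsSolvable (Grp U) :=
  solvable_of_ker_le_range (SemidirectProduct.inl : Multiplicative K →* Grp U)
    (SemidirectProduct.rightHom : Grp U →* U)
    (le_of_eq SemidirectProduct.range_inl_eq_ker_rightHom.symm)

theorem finite [Finite K] : Finite (Grp U) :=
  Finite.of_equiv _ SemidirectProduct.equivProd.symm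

theorem act_apply (u : U) (x : Multiplicative K) :
    (act U u x).toAdd = ((u : Kˣ) : K) * x.toAdd := rfl

theorem pow_right (g : Grp U) (k : ℕ) : (g ^ k).right = g.right ^ k :=
  map_pow SemidirectProduct.rightHom g k

theorem sub_one_mul_pow_left (g : Grp U) (k : ℕ) :
    (((g.right : Kˣ) : K) - 1) * (g ^ k).left.toAdd =
      (((g.right : Kˣ) : K) ^ k - 1) * g.left.toAdd := by
  induction k with
  | zero => simp
  | succ k ih =>
    rw [pow_succ, SemidirectProduct.mul_left, pow_right, toAdd_mul, act_apply, mul_add, ih]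
    simp only [SubgroupClass.coe_pow, Units.val_pow_eq_pow_val]
    ring

theorem orderOf_cases (p : ℕ) [Fact p.Prime] [CharP K p] (g : Grp U) :
    orderOf g ∣ p ∨ orderOf g = orderOf g.right := by
  by_cases h : g.right = 1
  · left
    apply orderOf_dvd_of_pow_eq_one
    obtain ⟨x, hx⟩ : ∃ x : Multiplicative K, g = SemidirectProduct.inl x :=
      ⟨g.left, SemidirectProduct.ext rfl (by rw [h]; rfl)⟩
    rw [hx, ← map_pow]
    have : x ^ p = 1 := Multiplicative.toAdd.injective (by simp [nsmul_eq_mul, CharP.cast_eq_zero K p])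
    rw [this, map_one]
  · right
    have hs : ((g.right : Kˣ) : K) - 1 ≠ 0 := sub_ne_zero.mpr (fun h' => h (Subtype.ext (Units.ext h')))
    refine Nat.dvd_antisymm (orderOf_dvd_of_pow_eq_one ?_) (orderOf_dvd_of_pow_eq_one ?_)
    · refine SemidirectProduct.ext ?_ ?_
      · have h1 := sub_one_mul_pow_left U g (orderOf g.right)
        have h2 : ((g.right : Kˣ) : K) ^ orderOf g.right = 1 := by
          rw [← Units.val_pow_eq_pow_val, ← SubgroupClass.coe_pow, pow_orderOf_eq_one]
          rfl
        rw [h2, sub_self, zero_mul] at h1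
        exact Multiplicative.toAdd.injective ((mul_eq_zero.mp h1).resolve_left hs)
      · rw [pow_right, pow_orderOf_eq_one]; rfl
    · rw [← pow_right, pow_orderOf_eq_one]; rfl

/-- The element orders when `U` is cyclic of order `m`. -/
theorem range_orderOf [Finite K] (p : ℕ) [Fact p.Prime] [CharP K p] (u : Kˣ) :
    Set.range (orderOf : Grp (Subgroup.zpowers u) → ℕ) = {n : ℕ | n ∣ p ∨ n ∣ orderOf u} := by
  ext n
  constructor
  · rintro ⟨g, rfl⟩
    rcases orderOf_cases _ p g with h | h
    · exact Or.inl h
    · refine Or.inr ?_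
      rw [h, ← Subgroup.orderOf_coe]
      obtain ⟨i, hi⟩ := Subgroup.mem_zpowers_iff.mp g.right.2
      rw [← hi]
      exact orderOf_dvd_of_mem_zpowers (Subgroup.zpow_mem _ (Subgroup.mem_zpowers u) i)
  · rintro (h | h)
    · rcases (Nat.dvd_prime Fact.out).mp h with rfl | hn
      · exact ⟨1, orderOf_one⟩
      · rw [hn]
        refine ⟨SemidirectProduct.inl (Multiplicative.ofAdd 1), ?_⟩
        rw [orderOf_injective _ SemidirectProduct.inl_injective]
        refine orderOf_eq_prime (Multiplicative.toAdd.injective (by simp [nsmul_eq_mul, CharP.cast_eq_zero K p])) ?_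
        intro h1
        exact one_ne_zero (congrArg Multiplicative.toAdd h1 : (1 : K) = 0)
    · obtain ⟨d, hd⟩ := h
      have h0 : orderOf u ≠ 0 := (orderOf_pos u).ne'
      refine ⟨SemidirectProduct.inr ⟨u ^ d, Subgroup.pow_mem _ (Subgroup.mem_zpowers u) d⟩, ?_⟩
      have hd0 : d ≠ 0 := fun h => h0 (by rw [hd, h, mul_zero])
      rw [orderOf_injective _ SemidirectProduct.inr_injective, ← Subgroup.orderOf_coe]
      change orderOf (u ^ d) = n
      rw [orderOf_pow_of_dvd hd0 (Dvd.intro_left _ hd.symm), hd, Nat.mul_div_cancel _ (Nat.pos_of_ne_zero hd0)]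

end CfsgLib.AffineLine
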